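import Cfsg.Agent.H477.HC.Cus

/-!
# The characters of degree `3` of `GL_3(2)` (S4816, helper240)

`exists_three` : an irreducible character `ψ` of `GL_3(2)` with `ψ 1 = 3`, `ψ t = -1` at involutions, cuspidal, and
orthogonal to its twist by the inverse transpose `H477.HC.invT 3`.
-/

set_option autoImplicit false

open scoped ComplexConjugate
open Cfsg

namespace Cfsg.Agent.H240.RIM

open Cfsg.Agent.Characters Module Cfsg.Agent.H53.HC Cfsg.Agent.H477.HC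

/-- the standard involution -/
def t0 : Matrix (Fin 3) (Fin 3) (ZMod 2) := !![1, 1, 0; 0, 1, 0; 0, 0, 1]

/-- the base change built from two vectors -/
def bc (t : Matrix (Fin 3) (Fin 3) (ZMod 2)) (w e : Fin 3 → ZMod 2) : Matrix (Fin 3) (Fin 3) (ZMod 2) :=
  Matrix.of fun i j => if j = 0 then t.mulVec w i - w i else if j = 1 then w i else e i

/-- the test -/
def chk (t : Matrix (Fin 3) (Fin 3) (ZMod 2)) : Prop :=
  t * t = 1 → t ≠ 1 → ∃ w e : Fin 3 → ZMod 2, (bc t w e).det ≠ 0 ∧ t * bc t w e = bc t w e * t0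

instance (t : Matrix (Fin 3) (Fin 3) (ZMod 2)) : Decidable (chk t) := by
  unfold chk
  infer_instance

theorem all_chk : ∀ t : Matrix (Fin 3) (Fin 3) (ZMod 2), chk t := by
  decide +kernel

theorem exists_conj_t0 {t : GL (Fin 3) (ZMod 2)} (ht : t * t = 1) (ht1 : t ≠ 1) :
    ∃ g : GL (Fin 3) (ZMod 2), ((g⁻¹ * t * g : GL (Fin 3) (ZMod 2)) : Matrix (Fin 3) (Fin 3) (ZMod 2)) = t0 := by
  obtain ⟨w, e, h1, h2⟩ := all_chk (t : Matrix (Fin 3) (Fin 3) (ZMod 2))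
    (by rw [← Units.val_mul, ht, Units.val_one]) (fun h => ht1 (Units.ext h))
  let g : GL (Fin 3) (ZMod 2) := Matrix.GeneralLinearGroup.mkOfDetNeZero _ h1
  have hg : (g : Matrix (Fin 3) (Fin 3) (ZMod 2)) = bc (t : Matrix (Fin 3) (Fin 3) (ZMod 2)) w e := rfl
  refine ⟨g, ?_⟩
  rw [mul_assoc, Units.val_mul, Units.val_mul, hg, h2, ← hg, ← mul_assoc, ← Units.val_mul, inv_mul_cancel,
    Units.val_one, one_mul]

/-- the involutions of `GL_3(2)` are conjugate -/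
theorem invol_conj {s t : GL (Fin 3) (ZMod 2)} (hs : s * s = 1) (hs1 : s ≠ 1) (ht : t * t = 1) (ht1 : t ≠ 1) :
    ∃ g, g * s * g⁻¹ = t := by
  obtain ⟨x, hx⟩ := exists_conj_t0 hs hs1
  obtain ⟨y, hy⟩ := exists_conj_t0 ht ht1
  have h : x⁻¹ * s * x = y⁻¹ * t * y := Units.ext (hx.trans hy.symm)
  refine ⟨y * x⁻¹, ?_⟩
  calc y * x⁻¹ * s * (y * x⁻¹)⁻¹ = y * (x⁻¹ * s * x) * y⁻¹ := by group
    _ = t := by rw [h]; group

/-- the first coordinate line -/
def ln : Submodule (ZMod 2) (Fin 3 → ZMod 2) where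
  carrier := {x | x 1 = 0 ∧ x 2 = 0}
  add_mem' := by
    rintro x y ⟨h1, h2⟩ ⟨h3, h4⟩
    exact ⟨by rw [Pi.add_apply, h1, h3, add_zero], by rw [Pi.add_apply, h2, h4, add_zero]⟩
  zero_mem' := ⟨rfl, rfl⟩
  smul_mem' := by
    rintro c x ⟨h1, h2⟩
    exact ⟨by rw [Pi.smul_apply, h1, smul_zero], by rw [Pi.smul_apply, h2, smul_zero]⟩

theorem mem_ln {x : Fin 3 → ZMod 2} : x ∈ ln ↔ x 1 = 0 ∧ x 2 = 0 := Iff.rfl

theorem ln_ne_bot : ln ≠ ⊥ := by
  intro h
  have h1 : (![1, 0, 0] : Fin 3 → ZMod 2) ∈ ln := ⟨rfl, rfl⟩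
  rw [h, Submodule.mem_bot] at h1
  exact absurd (congrFun h1 0) (by decide)

theorem ln_ne_top : ln ≠ ⊤ := by
  intro h
  have h1 : (![0, 1, 0] : Fin 3 → ZMod 2) ∈ ln := by rw [h]; trivial
  exact absurd h1.1 (by decide)

/-- the elements of the radical -/
def rl (x : ZMod 2 × ZMod 2) : (Fin 3 → ZMod 2) →ₗ[ZMod 2] (Fin 3 → ZMod 2) where
  toFun v := ![v 0 + x.1 * v 1 + x.2 * v 2, v 1, v 2]
  map_add' u v := by
    ext i
    fin_cases i
    · simp; ring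
    · simp
    · simp
  map_smul' c v := by
    ext i
    fin_cases i
    · simp; ring
    · simp
    · simp

theorem rl_apply (x : ZMod 2 × ZMod 2) (v : Fin 3 → ZMod 2) : rl x v = ![v 0 + x.1 * v 1 + x.2 * v 2, v 1, v 2] := rfl

theorem rl_invol (x : ZMod 2 × ZMod 2) : Function.Involutive (rl x) := by
  intro v
  ext i
  rw [rl_apply, rl_apply]
  have h2 : (2 : ZMod 2) = 0 := by decide
  fin_cases i
  · simp
    linear_combination (x.1 * v 1 + x.2 * v 2) * h2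
  · simp
  · simp

/-- the elements of the radical -/
def re (x : ZMod 2 × ZMod 2) : (Fin 3 → ZMod 2) ≃ₗ[ZMod 2] (Fin 3 → ZMod 2) := LinearEquiv.ofInvolutive (rl x) (rl_invol x)

theorem re_apply (x : ZMod 2 × ZMod 2) (v : Fin 3 → ZMod 2) : re x v = ![v 0 + x.1 * v 1 + x.2 * v 2, v 1, v 2] := rfl

theorem re_sq (x : ZMod 2 × ZMod 2) : re x * re x = 1 := by
  apply LinearEquiv.ext
  intro v
  exact rl_invol x v

theorem re_zero : re 0 = 1 := by
  apply LinearEquiv.ext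
  intro v
  rw [re_apply]
  ext i
  fin_cases i <;> simp

theorem re_inj {x y : ZMod 2 × ZMod 2} (h : re x = re y) : x = y := by
  have h1 := congrFun (DFunLike.congr_fun h ![0, 1, 0]) 0
  have h2 := congrFun (DFunLike.congr_fun h ![0, 0, 1]) 0
  rw [re_apply, re_apply] at h1 h2
  ext
  · simpa using h1
  · simpa using h2

theorem re_mem (x : ZMod 2 × ZMod 2) : re x ∈ radU ln := by
  rw [mem_radU]
  refine ⟨fun w => ?_, fun d hd => ?_⟩
  · rw [mem_ln, re_apply]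
    simp
  · obtain ⟨h1, h2⟩ := hd
    rw [re_apply]
    ext i
    fin_cases i
    · simp [h1, h2]
    · simp
    · simp

theorem re_surj {u : (Fin 3 → ZMod 2) ≃ₗ[ZMod 2] (Fin 3 → ZMod 2)} (hu : u ∈ radU ln) : ∃ x, re x = u := by
  rw [mem_radU] at hu
  obtain ⟨h1, h2⟩ := hu
  have e0 : u ![1, 0, 0] = ![1, 0, 0] := h2 _ ⟨rfl, rfl⟩
  have e1 := h1 ![0, 1, 0]
  have e2 := h1 ![0, 0, 1]
  rw [mem_ln] at e1 e2
  obtain ⟨a1, a2⟩ := e1
  obtain ⟨b1, b2⟩ := e2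
  rw [Pi.sub_apply, sub_eq_zero] at a1 a2 b1 b2
  refine ⟨(u ![0, 1, 0] 0, u ![0, 0, 1] 0), ?_⟩
  apply LinearEquiv.ext
  intro v
  have hv : v = v 0 • ![1, 0, 0] + v 1 • ![0, 1, 0] + v 2 • ![0, 0, 1] := by
    ext i
    fin_cases i <;> simp
  have hu : u v = v 0 • u ![1, 0, 0] + v 1 • u ![0, 1, 0] + v 2 • u ![0, 0, 1] := by
    conv_lhs => rw [hv]
    rw [map_add, map_add, map_smul, map_smul, map_smul]
  rw [re_apply, hu, e0]
  ext i
  rw [Pi.add_apply, Pi.add_apply, Pi.smul_apply, Pi.smul_apply, Pi.smul_apply]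
  fin_cases i
  · simp; ring
  · simp only [Fin.mk_one, Fin.isValue]
    rw [a1, b1]
    simp
  · simp only [Fin.reduceFinMk]
    rw [a2, b2]
    simp

/-- the value of a cuspidal class function of degree `3` at the involutions -/
theorem cusp_invol {ψ : GL (Fin 3) (ZMod 2) → ℂ} (hcl : IsClassFunction _ ψ) (hc : IsCusp ψ) (h1 : ψ 1 = 3)
    {t : GL (Fin 3) (ZMod 2)} (ht : t * t = 1) (ht1 : t ≠ 1) : ψ t = -1 := by
  classical
  have hfin : Finite ((Fin 3 → ZMod 2) ≃ₗ[ZMod 2] (Fin 3 → ZMod 2)) := Finite.of_injective _ DFunLike.coe_injective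
  have : Fintype (radU ln) := Fintype.ofFinite _
  have h2 := hc ln ln_ne_bot ln_ne_top
  have hbij : Function.Bijective (fun x : ZMod 2 × ZMod 2 => (⟨re x, re_mem x⟩ : radU ln)) := by
    refine ⟨fun x y h => re_inj (congrArg Subtype.val h), fun u => ?_⟩
    obtain ⟨x, hx⟩ := re_surj u.2
    exact ⟨x, Subtype.ext hx⟩
  have h3 := hbij.sum_comp (fun u : radU ln => cl ψ (u : (Fin 3 → ZMod 2) ≃ₗ[ZMod 2] _))
  rw [h2] at h3
  have b := Pi.basisFun (ZMod 2) (Fin 3)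
  have h4 : ∀ x : ZMod 2 × ZMod 2, x ≠ 0 → cl ψ (re x) = ψ t := by
    intro x hx
    rw [cl_eq hcl b]
    have e1 : glE b (re x) * glE b (re x) = 1 := by rw [← map_mul, re_sq, map_one]
    have e2 : glE b (re x) ≠ 1 := by
      intro h
      apply hx
      apply re_inj
      rw [re_zero]
      apply (glE b).injective
      rw [h, map_one]
    obtain ⟨g, hg⟩ := invol_conj e1 e2 ht ht1
    rw [← hg]
    exact (hcl _ g).symm
  have h5 : cl ψ (re 0) = 3 := by rw [re_zero, cl_one hcl b, h1]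
  rw [Fintype.sum_eq_add_sum_compl (0 : ZMod 2 × ZMod 2)] at h3
  rw [Finset.sum_congr rfl (g := fun _ => ψ t) (fun x hx => h4 x (by simpa using hx)), Finset.sum_const] at h3
  have h6 : ({0}ᶜ : Finset (ZMod 2 × ZMod 2)).card = 3 := by decide
  rw [h6] at h3
  have h7 : (3 : ℂ) + 3 * ψ t = 0 := by
    have := h3
    simp only [h5] at this
    rw [← this, nsmul_eq_mul]
    push_cast
    ring
  linear_combination (1 / 3 : ℂ) * h7

/-- **the character of degree `3`** -/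
theorem exists_three_cus : ∃ ψ : GL (Fin 3) (ZMod 2) → ℂ, Cus (ZMod 2) 3 (RingHom.id _) (fun z => z ^ 1 = 1) ψ ∧
    IsIrrCharacter _ ψ ∧ ψ 1 = 3 ∧ (∀ t, t * t = 1 → t ≠ 1 → ψ t = -1) ∧ ∑ A, ψ A * conj (ψ (invT 3 A)) = 0 := by
  have hK : Nat.card (ZMod 2) = 2 := Nat.card_zmod 2
  obtain ⟨ψ, hψ⟩ := exists_cus (K := ZMod 2) 3 (by omega) 1 one_ne_zero (by
    intro i h0 hi
    rw [hK]
    interval_cases i <;> decide) (by
    intro i hi
    rw [hK]
    interval_cases i <;> decide)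
  have hcl : IsClassFunction _ ψ := Core.isCharacter_isClassFunction (Core.isIrr_isCharacter hψ.irr)
  have h1 : ψ 1 = 3 := by
    rw [hψ.deg, hK]
    norm_num [Finset.prod_Ico_succ_top]
  refine ⟨ψ, hψ, hψ.irr, h1, fun t ht ht1 => cusp_invol hcl hψ.cusp h1 ht ht1, ?_⟩
  have hinv : ∀ A : GL (Fin 3) (ZMod 2), invT 3 (invT 3 A) = A := by
    intro A
    ext i j
    rfl
  have hirr : IsIrrCharacter _ (ψ ∘ (invT 3 : GL (Fin 3) (ZMod 2) →* GL (Fin 3) (ZMod 2))) :=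
    Core.isIrr_comp (invT 3) (fun A => ⟨_, hinv A⟩) hψ.irr
  have hne : ψ ≠ ψ ∘ (invT 3 : GL (Fin 3) (ZMod 2) →* GL (Fin 3) (ZMod 2)) := by
    intro h
    apply hψ.dual
    funext A
    have h3 : ((Matrix.GeneralLinearGroup.map (RingHom.id (ZMod 2))).comp (invT 3)) A = invT 3 A := by
      ext i j
      rfl
    rw [Function.comp_apply, h3]
    exact (congrFun h A).symm
  have h2 := Core.classInner_irr_ne hψ.irr hirr hne
  unfold classInner at h2
  have h3 : (Nat.card (GL (Fin 3) (ZMod 2)) : ℂ)⁻¹ ≠ 0 := inv_ne_zero (by exact_mod_cast Nat.card_pos.ne')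
  exact (mul_eq_zero.1 h2).resolve_left h3

/-- **(A1)** -/
theorem exists_three : ∃ ψ : Matrix.GeneralLinearGroup (Fin 3) (ZMod 2) → ℂ, IsIrrCharacter _ ψ ∧ ψ 1 = 3 ∧
    (∀ t, t * t = 1 → t ≠ 1 → ψ t = -1) ∧ ∑ A, ψ A * conj (ψ (invT 3 A)) = 0 := by
  obtain ⟨ψ, -, h⟩ := exists_three_cus
  exact ⟨ψ, h⟩

end Cfsg.Agent.H240.RIM
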